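import Mathlib

/-!
Bounded conjugacy classes: the commutator set is bounded (B. H. Neumann), and bounds for the
commutator subgroup in terms of the index of the centre.
-/

set_option autoImplicit false

namespace Cfsg.Agent.H6.InvertedBound

variable {G : Type*} [Group G]

/-- The conjugacy class of an element, as a set. -/
def cls (x : G) : Set G := Set.range fun g : G => g * x * g⁻¹

theorem mem_cls (g x : G) : g * x * g⁻¹ ∈ cls x := ⟨g, rfl⟩

/-- The index of a centralizer is the size of the class. -/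
theorem index_centralizer (x : G) :
    (Subgroup.centralizer ({x} : Set G)).index = Nat.card (cls x) := by
  let f : G ⧸ Subgroup.centralizer ({x} : Set G) → cls x :=
    Quotient.lift (fun g => (⟨g * x * g⁻¹, mem_cls g x⟩ : cls x)) fun a b hab => by
      have h := Subgroup.mem_centralizer_singleton_iff.1 (QuotientGroup.leftRel_apply.1 hab)
      apply Subtype.ext
      show a * x * a⁻¹ = b * x * b⁻¹
      calc a * x * a⁻¹ = a * (x * (a⁻¹ * b)) * b⁻¹ := by group
        _ = a * (a⁻¹ * b * x) * b⁻¹ := by rw [h]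
        _ = b * x * b⁻¹ := by group
  refine Nat.card_congr (Equiv.ofBijective f ⟨?_, ?_⟩)
  · intro a b
    induction a using QuotientGroup.induction_on with | _ a => ?_
    induction b using QuotientGroup.induction_on with | _ b => ?_
    intro e
    have e' : a * x * a⁻¹ = b * x * b⁻¹ := congrArg Subtype.val e
    refine QuotientGroup.eq.2 (Subgroup.mem_centralizer_singleton_iff.2 ?_)
    calc a⁻¹ * b * x = a⁻¹ * (b * x * b⁻¹) * b := by group
      _ = a⁻¹ * (a * x * a⁻¹) * b := by rw [e']
      _ = x * (a⁻¹ * b) := by group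
  · rintro ⟨_, g, rfl⟩
    exact ⟨(g : G ⧸ Subgroup.centralizer ({x} : Set G)), rfl⟩

theorem card_cls_mul [Finite G] (x : G) :
    Nat.card (cls x) * Nat.card (Subgroup.centralizer ({x} : Set G)) = Nat.card G := by
  rw [← index_centralizer, Subgroup.index_mul_card]

/-- The class of a product is no larger than the product of the classes. -/
theorem card_cls_mul_le [Finite G] (x y : G) :
    Nat.card (cls (x * y)) ≤ Nat.card (cls x) * Nat.card (cls y) := by
  rw [← Nat.card_prod]
  have h : ∀ z : cls (x * y), ∃ p : cls x × cls y, (p.1 : G) * p.2 = z := by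
    rintro ⟨z, g, rfl⟩
    exact ⟨(⟨_, mem_cls g x⟩, ⟨_, mem_cls g y⟩), by simp [mul_assoc]⟩
  choose f hf using h
  exact Nat.card_le_card_of_injective f fun a b e => Subtype.ext (by rw [← hf a, ← hf b, e])

open scoped commutatorElement

/-- Groups with classes of size at most `L` have boundedly many commutators. -/
theorem exists_commutatorSet_bound (L : ℕ) : ∃ N : ℕ, ∀ (X : Type) [Group X] [Finite X],
    (∀ x : X, Nat.card (cls x) ≤ L) → Nat.card (commutatorSet X) ≤ N := by
  refine ⟨(L + 1) ^ (L + 1) * (L * (L * L)), fun X _ _ hL => ?_⟩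
  classical
  obtain ⟨a, -, ha⟩ := Set.finite_univ.exists_maximalFor (fun x : X => Nat.card (cls x)) Set.univ ⟨1, trivial⟩
  have hmax : ∀ x : X, Nat.card (cls x) ≤ Nat.card (cls a) := fun x => by
    by_contra h
    exact h (ha (Set.mem_univ x) (le_of_lt (lt_of_not_ge h)))
  choose b hb using fun z : cls a => (z.2 : ∃ g, g * a * g⁻¹ = (z : X))
  let U : Subgroup X := ⨅ z : cls a, Subgroup.centralizer ({b z} : Set X)
  have hU : U.index ≤ (L + 1) ^ (L + 1) := by
    haveI : Fintype (cls a) := Fintype.ofFinite _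
    calc U.index ≤ ∏ z : cls a, (Subgroup.centralizer ({b z} : Set X)).index := Subgroup.index_iInf_le _
      _ ≤ ∏ _z : cls a, (L + 1) := Finset.prod_le_prod' fun z _ => by
          rw [index_centralizer]; exact (hL _).trans (Nat.le_succ L)
      _ = (L + 1) ^ Nat.card (cls a) := by rw [Finset.prod_const, Finset.card_univ, Nat.card_eq_fintype_card]
      _ ≤ (L + 1) ^ (L + 1) := Nat.pow_le_pow_right (Nat.succ_pos _) ((hL a).trans (Nat.le_succ L))
  -- conjugates of `a * u` are translates of conjugates of `a`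
  have htr : ∀ u ∈ U, ∀ g : X, ∃ p : cls a × cls a, ⁅g, u⁆ = (p.1 : X)⁻¹ * p.2 := by
    intro u hu g
    have hmem : ∀ z : cls a, (z : X) * u ∈ cls (a * u) := fun z => by
      refine ⟨b z, ?_⟩
      have hc : u * b z = b z * u := Subgroup.mem_centralizer_singleton_iff.1 (Subgroup.mem_iInf.1 hu z)
      show b z * (a * u) * (b z)⁻¹ = z * u
      rw [← hb z]
      calc b z * (a * u) * (b z)⁻¹ = b z * a * (u * b z) * (b z)⁻¹ * (b z)⁻¹ := by group
        _ = b z * a * (b z * u) * (b z)⁻¹ * (b z)⁻¹ := by rw [hc]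
        _ = b z * a * (b z)⁻¹ * (b z * (b z * u) * (b z)⁻¹ * (b z)⁻¹) := by group
        _ = b z * a * (b z)⁻¹ * u := by
          congr 1
          rw [← hc, ← mul_assoc (b z) u, ← hc]
          group
    let φ : cls a → cls (a * u) := fun z => ⟨_, hmem z⟩
    have hinj : Function.Injective φ := fun z w e => Subtype.ext (mul_right_cancel (congrArg Subtype.val e))
    have hsur : Function.Surjective φ := by
      have hcard : Nat.card (cls a) = Nat.card (cls (a * u)) :=
        le_antisymm (Nat.card_le_card_of_injective φ hinj) (hmax _)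
      exact ((Nat.bijective_iff_injective_and_card φ).2 ⟨hinj, hcard⟩).2
    obtain ⟨z, hz⟩ := hsur ⟨_, mem_cls g (a * u)⟩
    have hz' : (z : X) * u = g * (a * u) * g⁻¹ := congrArg Subtype.val hz
    refine ⟨(⟨_, mem_cls g a⟩, z), ?_⟩
    show ⁅g, u⁆ = (g * a * g⁻¹)⁻¹ * (z : X)
    rw [eq_mul_inv_of_mul_eq hz', commutatorElement_def]
    group
  have hcov : ∀ w : commutatorSet X, ∃ (r : X ⧸ U) (s : cls r.out) (p : cls a × cls a),
      (w : X) = (s : X) * r.out⁻¹ * (r.out * ((p.1 : X)⁻¹ * p.2) * r.out⁻¹) := by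
    rintro ⟨w, g, x, rfl⟩
    obtain ⟨u, hu⟩ := QuotientGroup.mk_out_eq_mul U x
    obtain ⟨p, hp⟩ := htr ((u : X)⁻¹) (inv_mem u.2) g
    refine ⟨(x : X ⧸ U), ⟨_, mem_cls g _⟩, p, ?_⟩
    show ⁅g, x⁆ = _
    rw [← hp, hu, commutatorElement_def, commutatorElement_def]
    group
  choose r s p hw using hcov
  let F : commutatorSet X → (Σ r : X ⧸ U, cls r.out × (cls a × cls a)) := fun w => ⟨r w, s w, p w⟩
  have hF : Function.Injective F := by
    intro w w' e
    apply Subtype.ext
    rw [hw w, hw w']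
    exact congrArg (fun v : (Σ r : X ⧸ U, cls r.out × (cls a × cls a)) =>
      (v.2.1 : X) * v.1.out⁻¹ * (v.1.out * ((v.2.2.1 : X)⁻¹ * v.2.2.2) * v.1.out⁻¹)) e
  refine (Nat.card_le_card_of_injective F hF).trans ?_
  haveI : Fintype (X ⧸ U) := Fintype.ofFinite _
  rw [Nat.card_sigma]
  refine (Finset.sum_le_card_nsmul _ _ (L * (L * L)) fun q _ => ?_).trans ?_
  · rw [Nat.card_prod, Nat.card_prod]
    exact Nat.mul_le_mul (hL _) (Nat.mul_le_mul (hL a) (hL a))
  · rw [Finset.card_univ, ← Nat.card_eq_fintype_card, ← Subgroup.index_eq_card, smul_eq_mul]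
    exact Nat.mul_le_mul_right _ hU

/-- Boundedly many commutators give a bounded commutator subgroup. -/
theorem exists_commutator_bound (B : ℕ) : ∃ N : ℕ, ∀ (X : Type) [Group X] [Finite X],
    Nat.card (commutatorSet X) ≤ B → Nat.card (commutator X) ≤ N :=
  ⟨(Finset.range (B + 1)).sup Subgroup.cardCommutatorBound, fun X _ _ hB =>
    (Subgroup.card_commutator_le_of_finite_commutatorSet X).trans
      (Finset.le_sup (f := Subgroup.cardCommutatorBound) (Finset.mem_range.2 (Nat.lt_succ_of_le hB)))⟩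

/-- Groups with classes of size at most `L` have bounded commutator subgroup. -/
theorem exists_derived_bound_of_classes (L : ℕ) : ∃ N : ℕ, ∀ (X : Type) [Group X] [Finite X],
    (∀ x : X, Nat.card (cls x) ≤ L) → Nat.card (commutator X) ≤ N := by
  obtain ⟨B, hB⟩ := exists_commutatorSet_bound L
  obtain ⟨N, hN⟩ := exists_commutator_bound B
  exact ⟨N, fun X _ _ h => hN X (hB X h)⟩

/-- A centre of bounded index gives a bounded commutator subgroup. -/
theorem exists_derived_bound_of_center (B : ℕ) : ∃ N : ℕ, ∀ (X : Type) [Group X] [Finite X],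
    (Subgroup.center X).index ≤ B → Nat.card (commutator X) ≤ N := by
  obtain ⟨N, hN⟩ := exists_commutator_bound (B * B)
  refine ⟨N, fun X _ _ hB => hN X (le_trans ?_ (Nat.mul_le_mul hB hB))⟩
  rw [Subgroup.index_eq_card, ← Nat.card_prod]
  have h : ∀ w : commutatorSet X, ∃ q : (X ⧸ Subgroup.center X) × (X ⧸ Subgroup.center X),
      (w : X) = ⁅q.1.out, q.2.out⁆ := by
    rintro ⟨w, g, x, rfl⟩
    obtain ⟨u, hu⟩ := QuotientGroup.mk_out_eq_mul (Subgroup.center X) g
    obtain ⟨v, hv⟩ := QuotientGroup.mk_out_eq_mul (Subgroup.center X) x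
    refine ⟨((g : X ⧸ Subgroup.center X), (x : X ⧸ Subgroup.center X)), ?_⟩
    show ⁅g, x⁆ = ⁅(g : X ⧸ Subgroup.center X).out, (x : X ⧸ Subgroup.center X).out⁆
    have cu : ∀ y : X, Commute (u : X) y := fun y => (Subgroup.mem_center_iff.1 u.2 y).symm
    have cv : ∀ y : X, Commute (v : X) y := fun y => (Subgroup.mem_center_iff.1 v.2 y).symm
    rw [hu, hv, commutatorElement_def, commutatorElement_def]
    symm
    calc g * u * (x * v) * (g * u)⁻¹ * (x * v)⁻¹
        = g * (u * (x * v) * (u : X)⁻¹) * g⁻¹ * (v : X)⁻¹ * x⁻¹ := by group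
      _ = g * (x * v) * g⁻¹ * (v : X)⁻¹ * x⁻¹ := by rw [(cu _).eq, mul_inv_cancel_right]
      _ = g * x * (v * g⁻¹ * (v : X)⁻¹) * x⁻¹ := by group
      _ = g * x * g⁻¹ * x⁻¹ := by rw [(cv _).eq, mul_inv_cancel_right]
  choose q hq using h
  exact Nat.card_le_card_of_injective q fun a b e => Subtype.ext (by rw [hq a, hq b, e])

end Cfsg.Agent.H6.InvertedBound
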