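import Cfsg.Agent.H6.InvertedBound.Classes
import Cfsg.Agent.H64.Zip.ConjIter

/-!
The order of a group `G = [G, α]`, `α` an involutory automorphism, is bounded in terms of the number of
inverted elements of odd order: these generate, the fixed points modulo the centre act faithfully on
them, so the inverted elements cover a positive part of the group and this gives a large abelian
normal subgroup, most of which is centralised by every inverted element of odd order.
-/

set_option autoImplicit false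

namespace Cfsg.Agent.H6.InvertedBound

section Cover

variable {X : Type} [Group X] [Finite X]

/-- Inverted elements cover a part `1 / |C(α)|` of the group. -/
theorem card_le_inverted (α : MulAut X) (hinv : ∀ x, α (α x) = x) :
    Nat.card X ≤ Nat.card {y : X // α y = y⁻¹} * Nat.card {x : X // α x = x} := by
  have hmem : ∀ g : X, α (g * (α g)⁻¹) = (g * (α g)⁻¹)⁻¹ := fun g => by
    rw [map_mul, map_inv, hinv, mul_inv_rev, inv_inv]
  classical
  let r : {y : X // α y = y⁻¹} → X := fun y =>
    if h : ∃ g : X, g * (α g)⁻¹ = y.1 then h.choose else 1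
  have hr : ∀ g : X, r ⟨_, hmem g⟩ * (α (r ⟨_, hmem g⟩))⁻¹ = g * (α g)⁻¹ := by
    intro g
    have h : ∃ g' : X, g' * (α g')⁻¹ = g * (α g)⁻¹ := ⟨g, rfl⟩
    simp only [r, dif_pos h]
    exact h.choose_spec
  rw [← Nat.card_prod]
  let F : X → {y : X // α y = y⁻¹} × {x : X // α x = x} := fun g =>
    (⟨_, hmem g⟩, ⟨(r ⟨_, hmem g⟩)⁻¹ * g, by
      have h := hr g
      rw [map_mul, map_inv]
      calc (α (r ⟨_, hmem g⟩))⁻¹ * α g
          = (r ⟨_, hmem g⟩)⁻¹ * (r ⟨_, hmem g⟩ * (α (r ⟨_, hmem g⟩))⁻¹) * α g := by group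
        _ = (r ⟨_, hmem g⟩)⁻¹ * g := by rw [h]; group⟩)
  refine Nat.card_le_card_of_injective F fun g g' e => ?_
  have e1 : (⟨_, hmem g⟩ : {y : X // α y = y⁻¹}) = ⟨_, hmem g'⟩ := congrArg Prod.fst e
  have e2 : (r ⟨_, hmem g⟩)⁻¹ * g = (r ⟨_, hmem g'⟩)⁻¹ * g' := congrArg (fun q => (q.2 : X)) e
  rw [e1] at e2
  exact mul_left_cancel e2

/-- Many inverted `y` with `h⁻¹ * y` inverted bound the class of `h`. -/
theorem card_inter_le (α : MulAut X) (h : X) :
    Nat.card {y : X // α y = y⁻¹ ∧ α (h⁻¹ * y) = (h⁻¹ * y)⁻¹} ≤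
      Nat.card (Subgroup.centralizer ({h} : Set X)) := by
  rcases isEmpty_or_nonempty {y : X // α y = y⁻¹ ∧ α (h⁻¹ * y) = (h⁻¹ * y)⁻¹} with he | ⟨⟨y0, hy0⟩⟩
  · rw [Nat.card_of_isEmpty]; exact Nat.zero_le _
  have key : ∀ y : X, α y = y⁻¹ → α (h⁻¹ * y) = (h⁻¹ * y)⁻¹ → y⁻¹ * h * y = (α h)⁻¹ := by
    intro y hy hy'
    rw [map_mul, map_inv, hy, mul_inv_rev, inv_inv] at hy'
    rw [← hy']; group
  let F : {y : X // α y = y⁻¹ ∧ α (h⁻¹ * y) = (h⁻¹ * y)⁻¹} → Subgroup.centralizer ({h} : Set X) := fun y =>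
    ⟨y.1 * y0⁻¹, by
      rw [Subgroup.mem_centralizer_singleton_iff]
      have e := (key _ y.2.1 y.2.2).trans (key _ hy0.1 hy0.2).symm
      calc y.1 * y0⁻¹ * h = y.1 * (y0⁻¹ * h * y0) * y0⁻¹ := by group
        _ = y.1 * (y.1⁻¹ * h * y.1) * y0⁻¹ := by rw [e]
        _ = h * (y.1 * y0⁻¹) := by group⟩
  exact Nat.card_le_card_of_injective F fun a b e =>
    Subtype.ext (mul_right_cancel (congrArg Subtype.val e))

/-- Boundedly many translates of the elements with bounded class cover the group. -/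
theorem exists_cover (α : MulAut X) (hinv : ∀ x, α (α x) = x) {c : ℕ}
    (hc : Nat.card {x : X // α x = x} ≤ c) :
    ∃ S : Finset X, S.card ≤ 2 * c ∧
      ∀ g : X, ∃ x ∈ S, Nat.card (cls (x⁻¹ * g)) ≤ 8 * c * c + 1 := by
  classical
  haveI : Fintype X := Fintype.ofFinite X
  set n := Fintype.card X with hn
  have hn0 : 0 < n := Fintype.card_pos
  set L := 8 * c * c + 1 with hL
  let I : Finset X := Finset.univ.filter fun y => α y = y⁻¹
  have hI : n ≤ I.card * c := by
    have h1 := card_le_inverted α hinv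
    rw [Nat.card_eq_fintype_card, Nat.card_eq_fintype_card (α := {y : X // α y = y⁻¹}),
      Fintype.card_subtype] at h1
    exact h1.trans (Nat.mul_le_mul_left _ hc)
  let A : X → Finset X := fun x => I.image (x * ·)
  have hA : ∀ x, (A x).card = I.card := fun x => Finset.card_image_of_injective _ (mul_right_injective x)
  let P : Finset X → Prop := fun S => ∀ x ∈ S, ∀ y ∈ S, x ≠ y → (A x ∩ A y).card * L < n
  have hun : ∀ S : Finset X, P S →
      S.card * I.card * L ≤ (S.biUnion A).card * L + S.card * S.card * n := by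
    intro S
    induction S using Finset.induction_on with
    | empty => simp
    | insert a S ha ih =>
      intro hP
      have ih' := ih fun x hx y hy => hP x (Finset.mem_insert_of_mem hx) y (Finset.mem_insert_of_mem hy)
      have h1 : (A a ∩ S.biUnion A).card * L ≤ S.card * n := by
        rw [Finset.inter_biUnion]
        refine (Nat.mul_le_mul_right _ Finset.card_biUnion_le).trans ?_
        rw [Finset.sum_mul]
        refine (Finset.sum_le_card_nsmul _ _ n fun x hx => ?_).trans (le_of_eq (smul_eq_mul _ _))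
        exact (hP a (Finset.mem_insert_self a S) x (Finset.mem_insert_of_mem hx)
          (fun e => ha (e ▸ hx))).le
      have h2 := Finset.card_union_add_card_inter (A a) (S.biUnion A)
      rw [hA] at h2
      rw [Finset.card_insert_of_notMem ha, Finset.biUnion_insert]
      have h3 : (A a ∪ S.biUnion A).card * L + (A a ∩ S.biUnion A).card * L =
          I.card * L + (S.biUnion A).card * L := by
        rw [← Nat.add_mul, h2, Nat.add_mul]
      nlinarith
  obtain ⟨S, hS, hSmax⟩ := Finset.exists_max_image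
    ((Finset.univ : Finset X).powerset.filter P) Finset.card
    ⟨∅, Finset.mem_filter.2 ⟨Finset.mem_powerset.2 (Finset.empty_subset _), by simp [P]⟩⟩
  rw [Finset.mem_filter] at hS
  have hSc : S.card ≤ 2 * c := by
    by_contra hlt
    obtain ⟨T, hTS, hT⟩ := Finset.exists_subset_card_eq (le_of_lt (not_le.1 hlt))
    have h1 := hun T fun x hx y hy => hS.2 x (hTS hx) y (hTS hy)
    rw [hT] at h1
    have h2 : (T.biUnion A).card ≤ n := Finset.card_le_univ _
    have h3 : 2 * n * L ≤ 2 * c * I.card * L :=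
      Nat.mul_le_mul_right L (le_of_le_of_eq (Nat.mul_le_mul_left 2 hI) (by ring))
    have h4 : n * L ≤ 2 * c * (2 * c) * n := by nlinarith
    have h5 : L ≤ 2 * c * (2 * c) := Nat.le_of_mul_le_mul_right (by rwa [mul_comm n L] at h4) hn0
    rw [hL] at h5
    nlinarith
  refine ⟨S, hSc, fun g => ?_⟩
  suffices h : ∃ x ∈ S, n ≤ (A x ∩ A g).card * L by
    obtain ⟨x, hx, hle⟩ := h
    refine ⟨x, hx, ?_⟩
    have hsub : A x ∩ A g ⊆ ((Finset.univ : Finset X).filter fun y =>
        α y = y⁻¹ ∧ α ((x⁻¹ * g)⁻¹ * y) = ((x⁻¹ * g)⁻¹ * y)⁻¹).image (x * ·) := by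
      intro z hz
      obtain ⟨hz1, hz2⟩ := Finset.mem_inter.1 hz
      obtain ⟨y, hy, rfl⟩ := Finset.mem_image.1 hz1
      obtain ⟨y', hy', e⟩ := Finset.mem_image.1 hz2
      refine Finset.mem_image_of_mem _ (Finset.mem_filter.2 ⟨Finset.mem_univ _, (Finset.mem_filter.1 hy).2, ?_⟩)
      rw [show (x⁻¹ * g)⁻¹ * y = y' by
        calc (x⁻¹ * g)⁻¹ * y = g⁻¹ * (x * y) := by group
          _ = g⁻¹ * (g * y') := by rw [e]
          _ = y' := by group]
      exact (Finset.mem_filter.1 hy').2
    have h1 := (Finset.card_le_card hsub).trans Finset.card_image_le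
    rw [← Fintype.card_subtype, ← Nat.card_eq_fintype_card] at h1
    have h2 : n ≤ Nat.card (Subgroup.centralizer ({x⁻¹ * g} : Set X)) * L :=
      hle.trans (Nat.mul_le_mul_right _ (h1.trans (card_inter_le α _)))
    have h3 := card_cls_mul (x⁻¹ * g)
    rw [Nat.card_eq_fintype_card (α := X)] at h3
    rw [← hn] at h3
    rw [← h3, mul_comm] at h2
    exact Nat.le_of_mul_le_mul_left h2 Nat.card_pos
  by_contra hcon
  push Not at hcon
  have hgS : g ∉ S := fun hg => by
    have := hcon g hg
    rw [Finset.inter_self, hA] at this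
    nlinarith [Nat.mul_le_mul_left I.card (show c ≤ L by nlinarith)]
  have hP' : P (insert g S) := by
    intro x hx y hy hxy
    rw [Finset.mem_insert] at hx hy
    rcases hx with rfl | hx <;> rcases hy with rfl | hy
    · exact absurd rfl hxy
    · rw [Finset.inter_comm]; exact hcon y hy
    · exact hcon x hx
    · exact hS.2 x hx y hy hxy
  have := hSmax (insert g S) (Finset.mem_filter.2 ⟨Finset.mem_powerset.2 (Finset.subset_univ _), hP'⟩)
  rw [Finset.card_insert_of_notMem hgS] at this
  omega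

/-- Homomorphisms are determined by their values on generators. -/
theorem card_hom_le {P : Type} [Group P] [Finite P] (T : Set X) (hT : Subgroup.closure T = ⊤) :
    Nat.card (X →* P) ≤ Nat.card P ^ Nat.card T := by
  rw [← Nat.card_fun]
  exact Nat.card_le_card_of_injective (fun φ (t : T) => φ t) fun φ ψ e =>
    MonoidHom.eq_of_eqOn_dense hT fun t ht => congrFun e ⟨t, ht⟩

/-- A group with a bounded fixed point group and few nice inverted generators has a centre of
bounded index. -/
theorem center_index_bound (α : MulAut X) (hinv : ∀ x, α (α x) = x) {c m : ℕ}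
    (hc : Nat.card {x : X // α x = x} ≤ c) (T : Set X) (hT : Subgroup.closure T = ⊤)
    (hm : Nat.card T ≤ m) (hroot : ∀ j ∈ T, ∃ k : X, k * k = j ∧ α k = k⁻¹) :
    (Subgroup.center X).index ≤
      ((c * (2 * c * Nat.factorial (8 * c * c + 1) ^ (Nat.factorial (8 * c * c + 1) ^ m))) ^ 2) ^ m := by
  classical
  set L := 8 * c * c + 1 with hL
  have hc1 : 1 ≤ c := le_trans (Nat.one_le_iff_ne_zero.2 (by
    haveI : Nonempty {x : X // α x = x} := ⟨⟨1, map_one α⟩⟩
    exact Nat.card_pos.ne')) hc
  let F : Set X := {h | Nat.card (cls h) ≤ L}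
  have hclsα : ∀ h, Nat.card (cls (α h)) = Nat.card (cls h) := fun h => by
    refine Nat.card_congr (Equiv.subtypeEquiv α.symm.toEquiv fun z => ?_)
    constructor
    · rintro ⟨g, rfl⟩
      exact ⟨α.symm g, by simp [map_mul]⟩
    · rintro ⟨g, hg⟩
      refine ⟨α g, ?_⟩
      have := congrArg α hg
      simpa [map_mul] using this
  have hclsconj : ∀ g h : X, cls (g * h * g⁻¹) = cls h := fun g h => by
    ext z
    constructor
    · rintro ⟨w, rfl⟩
      exact ⟨w * g, by group⟩
    · rintro ⟨w, rfl⟩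
      exact ⟨w * g⁻¹, by group⟩
  -- the subgroup generated by small classes has small index
  let H : Subgroup X := Subgroup.closure F
  obtain ⟨S, hSc, hS⟩ := exists_cover α hinv hc
  have hHi : H.index ≤ 2 * c := by
    rw [Subgroup.index_eq_card]
    refine le_trans (Nat.card_le_card_of_surjective (fun x : S => ((x : X) : X ⧸ H)) ?_)
      (by rw [Nat.card_eq_fintype_card, Fintype.card_coe]; exact hSc)
    intro q
    induction q using QuotientGroup.induction_on with | _ g => ?_
    obtain ⟨x, hx, hle⟩ := hS g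
    exact ⟨⟨x, hx⟩, QuotientGroup.eq.2 (Subgroup.subset_closure hle)⟩
  have hHα : ∀ h ∈ H, α h ∈ H := by
    intro h hh
    have : H ≤ H.comap α.toMonoidHom := (Subgroup.closure_le _).2 fun z hz =>
      Subgroup.subset_closure (show Nat.card (cls (α z)) ≤ L by rw [hclsα]; exact hz)
    exact this hh
  have hHn : ∀ g, ∀ h ∈ H, g * h * g⁻¹ ∈ H := by
    intro g h hh
    have : H ≤ H.comap (MulAut.conj g).toMonoidHom := (Subgroup.closure_le _).2 fun z hz =>
      Subgroup.subset_closure (show Nat.card (cls (g * z * g⁻¹)) ≤ L by rw [hclsconj]; exact hz)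
    exact this hh
  -- the kernel of all actions on few points centralises the small classes
  let P := Equiv.Perm (Fin L)
  haveI : Finite (X →* P) := Finite.of_injective (fun φ => ⇑φ) DFunLike.coe_injective
  let K : Subgroup X := ⨅ φ : X →* P, φ.ker
  have hP : Nat.card P = L.factorial := by
    rw [Nat.card_eq_fintype_card, Fintype.card_perm, Fintype.card_fin]
  have hKi : K.index ≤ L.factorial ^ (L.factorial ^ m) := by
    haveI : Fintype (X →* P) := Fintype.ofFinite _
    calc K.index ≤ ∏ φ : X →* P, φ.ker.index := Subgroup.index_iInf_le _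
      _ ≤ ∏ _φ : X →* P, L.factorial := Finset.prod_le_prod' fun φ _ => by
          rw [Subgroup.index_ker, ← hP]
          exact Subgroup.card_le_card_group _
      _ = L.factorial ^ Nat.card (X →* P) := by
          rw [Finset.prod_const, Finset.card_univ, Nat.card_eq_fintype_card]
      _ ≤ L.factorial ^ (L.factorial ^ m) := Nat.pow_le_pow_right (Nat.factorial_pos L)
          ((card_hom_le T hT).trans (by
            rw [hP]; exact Nat.pow_le_pow_right (Nat.factorial_pos L) hm))
  have hKc : ∀ k ∈ K, ∀ h ∈ H, k * h = h * k := by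
    intro k hk
    suffices h : F ⊆ Subgroup.centralizer ({k} : Set X) from fun h' hh' =>
      (Subgroup.mem_centralizer_singleton_iff.1 ((Subgroup.closure_le _).2 h hh')).symm
    intro h hh
    rw [SetLike.mem_coe, Subgroup.mem_centralizer_singleton_iff]
    let ρ : X →* Equiv.Perm (cls h) :=
      { toFun := fun g =>
          { toFun := fun z => ⟨g * z * g⁻¹, by obtain ⟨w, hw⟩ := z.2; exact ⟨g * w, by rw [← hw]; group⟩⟩
            invFun := fun z => ⟨g⁻¹ * z * g, by obtain ⟨w, hw⟩ := z.2; exact ⟨g⁻¹ * w, by rw [← hw]; group⟩⟩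
            left_inv := fun z => Subtype.ext (by group)
            right_inv := fun z => Subtype.ext (by group) }
        map_one' := Equiv.ext fun z => Subtype.ext (by simp)
        map_mul' := fun a b => Equiv.ext fun z => Subtype.ext (by simp [mul_assoc]) }
    haveI : Fintype (cls h) := Fintype.ofFinite _
    have hcard : Fintype.card (cls h) ≤ Fintype.card (Fin L) := by
      rw [Fintype.card_fin, ← Nat.card_eq_fintype_card]; exact hh
    obtain ⟨e⟩ := Function.Embedding.nonempty_of_card_le hcard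
    have h1 : Equiv.Perm.viaEmbeddingHom e (ρ k) = 1 :=
      Subgroup.mem_iInf.1 hk ((Equiv.Perm.viaEmbeddingHom e).comp ρ)
    have h2 : ρ k = 1 := Equiv.Perm.viaEmbeddingHom_injective e (h1.trans (map_one _).symm)
    have h3 : k * h * k⁻¹ = h := by
      have := congrArg (fun σ : Equiv.Perm (cls h) => ((σ ⟨h, ⟨1, by simp⟩⟩ : cls h) : X)) h2
      simpa [ρ] using this
    exact (mul_inv_eq_iff_eq_mul.1 h3).symm
  have hKn : ∀ g, ∀ k ∈ K, g * k * g⁻¹ ∈ K := fun g k hk => Subgroup.mem_iInf.2 fun φ =>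
    (MonoidHom.normal_ker φ).conj_mem k (Subgroup.mem_iInf.1 hk φ) g
  have hKα : ∀ k ∈ K, α k ∈ K := fun k hk => Subgroup.mem_iInf.2 fun φ =>
    Subgroup.mem_iInf.1 hk (φ.comp α.toMonoidHom)
  -- the inverted part of the abelian subgroup
  let N : Subgroup X := K ⊓ H
  have hNc : ∀ x ∈ N, ∀ y ∈ N, x * y = y * x := fun x hx y hy => hKc x hx.1 y hy.2
  have hNα : ∀ x ∈ N, α x ∈ N := fun x hx => ⟨hKα x hx.1, hHα x hx.2⟩
  have hNi : N.index ≤ 2 * c * L.factorial ^ (L.factorial ^ m) :=
    (Subgroup.index_inf_le (H := K) (K := H)).trans (le_trans (Nat.mul_le_mul hKi hHi) (le_of_eq (mul_comm _ _)))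
  let A : Subgroup X :=
    { carrier := {x | x ∈ N ∧ α x = x⁻¹}
      one_mem' := ⟨one_mem N, by simp⟩
      mul_mem' := fun {x y} hx hy => ⟨mul_mem hx.1 hy.1, by
        rw [map_mul, hx.2, hy.2, ← mul_inv_rev, hNc x hx.1 y hy.1]⟩
      inv_mem' := fun {x} hx => ⟨inv_mem hx.1, by rw [map_inv, hx.2]⟩ }
  have hAi : A.index ≤ c * (2 * c * L.factorial ^ (L.factorial ^ m)) := by
    rw [← Subgroup.relIndex_mul_index (show A ≤ N from fun x hx => hx.1)]
    refine Nat.mul_le_mul ?_ hNi
    let ψ : N →* X :=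
      { toFun := fun x => x * α x
        map_one' := by simp
        map_mul' := fun x y => by
          show (x : X) * y * α ((x : X) * y) = x * α x * (y * α y)
          rw [map_mul, mul_assoc (x : X) y, ← mul_assoc (y : X) (α x), hNc y y.2 _ (hNα x x.2)]
          group }
    have hker : A.subgroupOf N = ψ.ker := by
      ext x
      rw [Subgroup.mem_subgroupOf, MonoidHom.mem_ker]
      exact ⟨fun hx => by show (x : X) * α x = 1; rw [hx.2, mul_inv_cancel],
        fun hx => ⟨x.2, eq_inv_of_mul_eq_one_right hx⟩⟩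
    rw [Subgroup.relIndex, hker, Subgroup.index_ker]
    refine le_trans (Nat.card_le_card_of_injective (β := {x : X // α x = x}) (fun z => ⟨z.1, ?_⟩)
      fun z w e => Subtype.ext (by simpa using e)) hc
    obtain ⟨x, hx⟩ := z.2
    rw [← hx]
    show α ((x : X) * α x) = x * α x
    rw [map_mul, hinv, hNc _ (hNα x x.2) x x.2]
  -- every inverted generator centralises a large part
  have hj : ∀ j ∈ T, (Subgroup.centralizer ({j} : Set X)).index ≤
      (c * (2 * c * L.factorial ^ (L.factorial ^ m))) ^ 2 := by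
    intro j hj
    obtain ⟨k, rfl, hk⟩ := hroot j hj
    let B : Subgroup X := A.map (MulAut.conj k⁻¹).toMonoidHom
    have hBi : B.index = A.index := Subgroup.index_map_equiv A (MulAut.conj k⁻¹)
    have hle : A ⊓ B ≤ Subgroup.centralizer ({k * k} : Set X) := by
      rintro x ⟨hxA, a, ha, hax⟩
      rw [Subgroup.mem_centralizer_singleton_iff]
      have hax' : x = k⁻¹ * a * k := by rw [← hax]; simp
      have h1 : x⁻¹ = k * a⁻¹ * k⁻¹ := by
        rw [← hxA.2, hax', map_mul, map_mul, map_inv, hk, ha.2, inv_inv]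
      have h2 : x = k * a * k⁻¹ := by
        rw [← inv_inv x, h1]; group
      calc x * (k * k) = k * a * k⁻¹ * (k * k) := by rw [h2]
        _ = k * k * (k⁻¹ * a * k) := by group
        _ = k * k * x := by rw [← hax']
    calc (Subgroup.centralizer ({k * k} : Set X)).index
        ≤ (A ⊓ B).index := Nat.le_of_dvd (Nat.pos_of_ne_zero Subgroup.index_ne_zero_of_finite)
          (Subgroup.index_dvd_of_le hle)
      _ ≤ A.index * B.index := Subgroup.index_inf_le
      _ ≤ _ := by rw [hBi, sq]; exact Nat.mul_le_mul hAi hAi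
  haveI : Fintype T := Fintype.ofFinite _
  have hZ : (⨅ j : T, Subgroup.centralizer ({(j : X)} : Set X)) ≤ Subgroup.center X := by
    intro x hx
    rw [Subgroup.mem_center_iff]
    intro g
    have : T ⊆ Subgroup.centralizer ({x} : Set X) := fun t ht => by
      rw [SetLike.mem_coe, Subgroup.mem_centralizer_singleton_iff]
      exact (Subgroup.mem_centralizer_singleton_iff.1 (Subgroup.mem_iInf.1 hx ⟨t, ht⟩)).symm
    exact Subgroup.mem_centralizer_singleton_iff.1
      ((Subgroup.closure_le _).2 this (hT ▸ Subgroup.mem_top g))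
  calc (Subgroup.center X).index
      ≤ (⨅ j : T, Subgroup.centralizer ({(j : X)} : Set X)).index :=
        Nat.le_of_dvd (Nat.pos_of_ne_zero Subgroup.index_ne_zero_of_finite) (Subgroup.index_dvd_of_le hZ)
    _ ≤ ∏ j : T, (Subgroup.centralizer ({(j : X)} : Set X)).index := Subgroup.index_iInf_le _
    _ ≤ ∏ _j : T, (c * (2 * c * L.factorial ^ (L.factorial ^ m))) ^ 2 :=
        Finset.prod_le_prod' fun j _ => hj j j.2
    _ = ((c * (2 * c * L.factorial ^ (L.factorial ^ m))) ^ 2) ^ Nat.card T := by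
        rw [Finset.prod_const, Finset.card_univ, Nat.card_eq_fintype_card]
    _ ≤ _ := Nat.pow_le_pow_right (pow_pos (Nat.mul_pos hc1
        (Nat.mul_pos (by omega) (pow_pos (Nat.factorial_pos L) _))) 2) hm

end Cover

/-- A commutative group generated by `m` elements of order at most `m`. -/
theorem card_abelian_le {Q : Type} [CommGroup Q] [Finite Q] (T : Set Q) {m : ℕ}
    (hT : Subgroup.closure T = ⊤) (hm : Nat.card T ≤ m) (ho : ∀ t ∈ T, orderOf t ≤ m) :
    Nat.card Q ≤ (m + 1) ^ m := by
  classical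
  haveI : Fintype T := Fintype.ofFinite _
  let φ : (∀ t : T, Subgroup.zpowers (t : Q)) →* Q :=
    { toFun := fun f => ∏ t, (f t : Q)
      map_one' := by simp
      map_mul' := fun f g => by simp [Finset.prod_mul_distrib] }
  have hsur : Function.Surjective φ := by
    rw [← MonoidHom.range_eq_top, eq_top_iff, ← hT, Subgroup.closure_le]
    intro t ht
    refine ⟨Pi.mulSingle ⟨t, ht⟩ ⟨t, Subgroup.mem_zpowers t⟩, ?_⟩
    show ∏ u : T, ((Pi.mulSingle ⟨t, ht⟩ ⟨t, Subgroup.mem_zpowers t⟩ :
      ∀ t : T, Subgroup.zpowers (t : Q)) u : Q) = t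
    rw [Finset.prod_eq_single (⟨t, ht⟩ : T) (fun u _ hu => by rw [Pi.mulSingle_eq_of_ne hu]; rfl)
      (fun h => absurd (Finset.mem_univ _) h), Pi.mulSingle_eq_same]
  calc Nat.card Q ≤ Nat.card (∀ t : T, Subgroup.zpowers (t : Q)) :=
        Nat.card_le_card_of_surjective φ hsur
    _ = ∏ t : T, Nat.card (Subgroup.zpowers (t : Q)) := Nat.card_pi
    _ ≤ ∏ _t : T, (m + 1) := Finset.prod_le_prod' fun t _ => by
        rw [Nat.card_zpowers]; exact (ho t t.2).trans (Nat.le_succ m)
    _ = (m + 1) ^ Nat.card T := by rw [Finset.prod_const, Finset.card_univ, Nat.card_eq_fintype_card]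
    _ ≤ (m + 1) ^ m := Nat.pow_le_pow_right (Nat.succ_pos m) hm

open scoped IsMulCommutative in
/-- The order is bounded by the derived subgroup and the generators. -/
theorem card_le_commutator_mul {X : Type} [Group X] [Finite X] (T : Set X) {m : ℕ}
    (hT : Subgroup.closure T = ⊤) (hm : Nat.card T ≤ m) (ho : ∀ t ∈ T, orderOf t ≤ m) :
    Nat.card X ≤ Nat.card (commutator X) * (m + 1) ^ m := by
  rw [Subgroup.card_eq_card_quotient_mul_card_subgroup (commutator X), mul_comm]
  refine Nat.mul_le_mul_left _ ?_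
  have h := card_abelian_le (Q := Abelianization X) ((Abelianization.of : X →* _) '' T) (m := m) ?_ ?_ ?_
  · exact h
  · rw [← MonoidHom.map_closure, hT, ← MonoidHom.range_eq_map, MonoidHom.range_eq_top]
    exact QuotientGroup.mk'_surjective _
  · exact (Nat.card_image_le (Set.toFinite T)).trans hm
  · rintro _ ⟨t, ht, rfl⟩
    exact (Nat.le_of_dvd (orderOf_pos t) (orderOf_map_dvd Abelianization.of t)).trans (ho t ht)

/-- A square root inside an odd cyclic group. -/
theorem exists_root {G : Type} [Group G] (α : MulAut G) {j : G} (hodd : Odd (orderOf j))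
    (hj : α j = j⁻¹) : ∃ k : G, k * k = j ∧ α k = k⁻¹ := by
  obtain ⟨t, ht⟩ := hodd
  refine ⟨j ^ (t + 1), ?_, by rw [map_pow, hj, inv_pow]⟩
  rw [← pow_add, show t + 1 + (t + 1) = 2 * t + 1 + 1 by ring, pow_succ, ← ht, pow_orderOf_eq_one, one_mul]

/-- The theorem: a bound on the order in terms of the inverted elements of odd order. -/
theorem exists_bound (m : ℕ) : ∃ N : ℕ, ∀ (G : Type) [Group G] [Finite G] (α : MulAut G),
    orderOf α = 2 → Subgroup.closure (Set.range (fun c : G => c * (α c)⁻¹)) = ⊤ →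
    Nat.card {g : G // Odd (orderOf g) ∧ α g = g⁻¹} = m → Nat.card G ≤ N := by
  set c := Nat.factorial m
  obtain ⟨N2, hN2⟩ := exists_derived_bound_of_center
    (((c * (2 * c * Nat.factorial (8 * c * c + 1) ^ (Nat.factorial (8 * c * c + 1) ^ m))) ^ 2) ^ m)
  obtain ⟨N3, hN3⟩ := exists_derived_bound_of_center (N2 * (m + 1) ^ m)
  refine ⟨N3 * (m + 1) ^ m, fun G _ _ α hα hgen hJ => ?_⟩
  classical
  have hinv : ∀ x, α (α x) = x := fun x => by
    have h : α ^ 2 = 1 := hα ▸ pow_orderOf_eq_one α
    simpa [sq] using congrArg (fun β : MulAut G => β x) h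
  set J : Set G := {g | Odd (orderOf g) ∧ α g = g⁻¹} with hJdef
  have hJm : Nat.card J = m := hJ
  -- `J` generates
  have hJgen : Subgroup.closure J = ⊤ := by
    have hiter : ∀ k : ℕ, ∀ g : G, (fun c : G => c * (α c)⁻¹)^[k + 1] g = (g * (α g)⁻¹) ^ (2 ^ k) := by
      intro k g
      induction k with
      | zero => simp
      | succ k ih =>
        rw [Function.iterate_succ_apply' _ (k + 1), ih]
        have hy : α ((g * (α g)⁻¹) ^ 2 ^ k) = ((g * (α g)⁻¹) ^ 2 ^ k)⁻¹ := by
          rw [map_pow, ← inv_pow, map_mul, map_inv, hinv, mul_inv_rev, inv_inv]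
        show _ * (α _)⁻¹ = _
        rw [hy, inv_inv, ← pow_add, ← two_mul, ← pow_succ']
    have h := Cfsg.Agent.H64.Zip.closure_iterate_commutator α hgen (Nat.card G + 1) (Nat.succ_pos _)
    rw [eq_top_iff, ← h, Subgroup.closure_le]
    rintro _ ⟨g, rfl⟩
    apply Subgroup.subset_closure
    rw [hiter]
    constructor
    · set x := g * (α g)⁻¹
      obtain ⟨a, o, ho, hxo⟩ := Nat.exists_eq_two_pow_mul_odd (orderOf_pos x).ne'
      have ha : a ≤ Nat.card G := by
        have h1 : 2 ^ a ≤ Nat.card G := le_trans (le_trans (Nat.le_mul_of_pos_right _ ho.pos) hxo.ge)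
          (Nat.le_of_dvd Nat.card_pos (orderOf_dvd_natCard x))
        exact (le_of_lt a.lt_two_pow_self).trans h1
      have : orderOf (x ^ 2 ^ Nat.card G) ∣ o := orderOf_dvd_of_pow_eq_one (by
        rw [← pow_mul, ← orderOf_dvd_iff_pow_eq_one, hxo]
        exact Nat.mul_dvd_mul_right (pow_dvd_pow 2 ha) o)
      exact ho.of_dvd_nat this
    · rw [map_pow, ← inv_pow, map_mul, map_inv, hinv, mul_inv_rev, inv_inv]
  have hord : ∀ j ∈ J, orderOf j ≤ m := by
    intro j hj
    rw [← hJm, ← Nat.card_zpowers]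
    refine Nat.card_le_card_of_injective (fun z => ⟨z.1, ?_, ?_⟩) fun z w e =>
      Subtype.ext (congrArg (fun q : J => (q : G)) e)
    · exact hj.1.of_dvd_nat (orderOf_dvd_of_mem_zpowers z.2)
    · obtain ⟨i, hi⟩ := Subgroup.mem_zpowers_iff.1 z.2
      rw [← hi, map_zpow, hj.2, inv_zpow]
  let Z := Subgroup.center G
  have hZα : Z.map α.toMonoidHom = Z := Subgroup.characteristic_iff_map_eq.1 inferInstance α
  let β : MulAut (G ⧸ Z) := QuotientGroup.congr Z Z α hZα
  have hβ : ∀ g : G, β (g : G ⧸ Z) = ((α g : G) : G ⧸ Z) := fun g => rfl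
  have hβinv : ∀ x, β (β x) = x := fun x => by
    induction x using QuotientGroup.induction_on with | _ g => ?_
    rw [hβ, hβ, hinv]
  -- the fixed points modulo the centre permute `J` faithfully
  have hfix : Nat.card {x : G ⧸ Z // β x = x} ≤ c := by
    have hP : ∀ x : {x : G ⧸ Z // β x = x}, ∀ j : J, x.1.out * j * x.1.out⁻¹ ∈ J := by
      intro x j
      refine ⟨?_, ?_⟩
      · rw [show x.1.out * (j : G) * x.1.out⁻¹ = MulAut.conj x.1.out (j : G) from rfl, MulEquiv.orderOf_eq]
        exact j.2.1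
      · have hz : x.1.out⁻¹ * α x.1.out ∈ Z := by
          rw [← QuotientGroup.eq, ← hβ, QuotientGroup.out_eq', x.2]
        have e : α x.1.out = x.1.out * (x.1.out⁻¹ * α x.1.out) := by group
        rw [map_mul, map_mul, map_inv, j.2.2, mul_inv_rev, mul_inv_rev, inv_inv, e]
        generalize hzz : x.1.out⁻¹ * α x.1.out = z at hz
        rw [mul_inv_rev]
        calc x.1.out * z * (j : G)⁻¹ * (z⁻¹ * x.1.out⁻¹)
            = x.1.out * (z * (j : G)⁻¹) * z⁻¹ * x.1.out⁻¹ := by group
          _ = x.1.out * ((j : G)⁻¹ * z) * z⁻¹ * x.1.out⁻¹ := by rw [(Subgroup.mem_center_iff.1 hz _).symm]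
          _ = x.1.out * ((j : G)⁻¹ * x.1.out⁻¹) := by group
    let F : {x : G ⧸ Z // β x = x} → (J ↪ J) := fun x =>
      ⟨fun j => ⟨_, hP x j⟩, fun a b e => Subtype.ext
        (mul_left_cancel (mul_right_cancel (congrArg Subtype.val e)))⟩
    have hF : Function.Injective F := by
      intro x y e
      apply Subtype.ext
      rw [← QuotientGroup.out_eq' x.1, ← QuotientGroup.out_eq' y.1, QuotientGroup.eq, Subgroup.mem_center_iff]
      intro g
      have : J ⊆ Subgroup.centralizer ({x.1.out⁻¹ * y.1.out} : Set G) := fun j hj => by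
        rw [SetLike.mem_coe, Subgroup.mem_centralizer_singleton_iff]
        have e' : x.1.out * j * x.1.out⁻¹ = y.1.out * j * y.1.out⁻¹ :=
          congrArg (fun σ : J ↪ J => ((σ ⟨j, hj⟩ : J) : G)) e
        calc j * (x.1.out⁻¹ * y.1.out) = x.1.out⁻¹ * (x.1.out * j * x.1.out⁻¹) * y.1.out := by group
          _ = x.1.out⁻¹ * y.1.out * j := by rw [e']; group
      exact Subgroup.mem_centralizer_singleton_iff.1
        ((Subgroup.closure_le _).2 this (hJgen ▸ Subgroup.mem_top g))
    haveI : Fintype J := Fintype.ofFinite _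
    refine (Nat.card_le_card_of_injective F hF).trans (le_of_eq ?_)
    rw [Nat.card_eq_fintype_card, Fintype.card_embedding_eq, Nat.descFactorial_self,
      ← Nat.card_eq_fintype_card, hJm]
  set T : Set (G ⧸ Z) := (QuotientGroup.mk' Z) '' J
  have hTgen : Subgroup.closure T = ⊤ := by
    rw [← MonoidHom.map_closure, hJgen, ← MonoidHom.range_eq_map, MonoidHom.range_eq_top]
    exact QuotientGroup.mk'_surjective Z
  have hTm : Nat.card T ≤ m := (Nat.card_image_le (Set.toFinite J)).trans hJm.le
  have hTroot : ∀ j ∈ T, ∃ k, k * k = j ∧ β k = k⁻¹ := by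
    rintro _ ⟨j, hj, rfl⟩
    obtain ⟨k, hk, hk'⟩ := exists_root α hj.1 hj.2
    exact ⟨(k : G ⧸ Z), by rw [← hk]; rfl, by rw [hβ, hk']; rfl⟩
  have hX : Nat.card (G ⧸ Z) ≤ N2 * (m + 1) ^ m :=
    (card_le_commutator_mul T hTgen hTm (by
      rintro _ ⟨j, hj, rfl⟩
      exact (Nat.le_of_dvd (orderOf_pos j) (orderOf_map_dvd _ j)).trans (hord j hj))).trans
      (Nat.mul_le_mul_right _ (hN2 _ (center_index_bound β hβinv hfix T hTgen hTm hTroot)))
  exact (card_le_commutator_mul J hJgen hJm.le hord).trans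
    (Nat.mul_le_mul_right _ (hN3 _ (by rw [Subgroup.index_eq_card]; exact hX)))

end Cfsg.Agent.H6.InvertedBound
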